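import Cfsg.Agent.H282.SK.Def

/-!
# TEAM SIDKI (S3010): rows from a concrete model of the automorphism group (helper858)

`Kill HH G₀ v` : `v` inverts an element `x` of odd order of `G₀` such that every involution of `HH` that centralises
`⟨v, x⟩` inverts some `y ≠ 1` of odd order of `C(⟨v, x⟩) ∩ G₀`.
`dead_of_model` : `K ≃ G₀ ⊴ HH = Aut(G₀)`, `|HH : G₀| ≤ 2`, all involutions of `G₀` are `Kill`: the row `K` is dead.
-/

set_option autoImplicit false

namespace Cfsg.Agent.H858.SidModel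

open Cfsg Subgroup
open Cfsg.Agent.H282.SK

universe u

variable {X : Type*} [Group X]

/-- see the file header -/
def Kill (HH G₀ : Subgroup X) (v : X) : Prop :=
  ∃ x ∈ G₀, Odd (orderOf x) ∧ v * x * v⁻¹ = x⁻¹ ∧
    ∀ w ∈ HH, w * w = 1 → w ≠ 1 → w * x = x * w → w * v = v * w →
      ∃ y ∈ G₀, y ≠ 1 ∧ Odd (orderOf y) ∧ v * y = y * v ∧ x * y = y * x ∧ w * y * w⁻¹ = y⁻¹

theorem Kill.conj {HH G₀ : Subgroup X} (hn : ∀ h ∈ HH, ∀ g ∈ G₀, h * g * h⁻¹ ∈ G₀) {v : X} (hv : Kill HH G₀ v)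
    {h : X} (hh : h ∈ HH) : Kill HH G₀ (h * v * h⁻¹) := by
  obtain ⟨x, hx, ho, hi, H⟩ := hv
  have hord : ∀ z : X, orderOf (h * z * h⁻¹) = orderOf z := by
    intro z
    have := orderOf_injective (MulAut.conj h).toMonoidHom (MulAut.conj h).injective z
    simpa using this
  refine ⟨h * x * h⁻¹, hn h hh x hx, by rw [hord]; exact ho, ?_, ?_⟩
  · calc h * v * h⁻¹ * (h * x * h⁻¹) * (h * v * h⁻¹)⁻¹ = h * (v * x * v⁻¹) * h⁻¹ := by group
      _ = h * x⁻¹ * h⁻¹ := by rw [hi]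
      _ = _ := by group
  · intro w hw hww hw1 hwx hwv
    obtain ⟨y, hy, hy1, hyo, hvy, hxy, hwy⟩ := H (h⁻¹ * w * h) (HH.mul_mem (HH.mul_mem (HH.inv_mem hh) hw) hh)
      (by
        calc h⁻¹ * w * h * (h⁻¹ * w * h) = h⁻¹ * (w * w) * h := by group
          _ = 1 := by rw [hww]; group)
      (by
        intro h1
        apply hw1
        calc w = h * (h⁻¹ * w * h) * h⁻¹ := by group
          _ = 1 := by rw [h1]; group)
      (by
        calc h⁻¹ * w * h * x = h⁻¹ * (w * (h * x * h⁻¹)) * h := by group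
          _ = h⁻¹ * (h * x * h⁻¹ * w) * h := by rw [hwx]
          _ = _ := by group)
      (by
        calc h⁻¹ * w * h * v = h⁻¹ * (w * (h * v * h⁻¹)) * h := by group
          _ = h⁻¹ * (h * v * h⁻¹ * w) * h := by rw [hwv]
          _ = _ := by group)
    refine ⟨h * y * h⁻¹, hn h hh y hy, ?_, by rw [hord]; exact hyo, ?_, ?_, ?_⟩
    · intro h1
      apply hy1
      calc y = h⁻¹ * (h * y * h⁻¹) * h := by group
        _ = 1 := by rw [h1]; group
    · calc h * v * h⁻¹ * (h * y * h⁻¹) = h * (v * y) * h⁻¹ := by group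
        _ = h * (y * v) * h⁻¹ := by rw [hvy]
        _ = _ := by group
    · calc h * x * h⁻¹ * (h * y * h⁻¹) = h * (x * y) * h⁻¹ := by group
        _ = h * (y * x) * h⁻¹ := by rw [hxy]
        _ = _ := by group
    · calc w * (h * y * h⁻¹) * w⁻¹ = h * (h⁻¹ * w * h * y * (h⁻¹ * w * h)⁻¹) * h⁻¹ := by group
        _ = h * y⁻¹ * h⁻¹ := by rw [hwy]
        _ = _ := by group

/-- The embedding of `G = K V` in the model of the automorphism group. -/
theorem exists_hom {HH G₀ : Subgroup X} (hle : G₀ ≤ HH)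
    (hc : ∀ h ∈ HH, (∀ g ∈ G₀, h * g = g * h) → h = 1)
    (haut : ∀ α : MulAut G₀, ∃ h ∈ HH, ∀ g : G₀, ((α g : G₀) : X) = h * g * h⁻¹)
    {G : Type u} [Group G] [Finite G] {V K : Subgroup G} (hx : Cx V K) (e : K ≃* G₀) :
    ∃ θ : G →* X, Function.Injective θ ∧ (∀ g, θ g ∈ HH) ∧ ∀ k : K, θ k = e k := by
  classical
  have := hx.norm
  have h1 : ∀ g : G, ∃ h ∈ HH, ∀ k : K, ((e (MulAut.conjNormal g k) : G₀) : X) = h * (e k : X) * h⁻¹ := by
    intro g
    obtain ⟨h, hh, H⟩ := haut (MulAut.congr e (MulAut.conjNormal g))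
    refine ⟨h, hh, fun k => ?_⟩
    rw [← H (e k)]
    show _ = ((e (MulAut.conjNormal g (e.symm (e k))) : G₀) : X)
    rw [e.symm_apply_apply]
  choose f hf H using h1
  have huniq : ∀ a ∈ HH, ∀ b ∈ HH, (∀ k : K, a * (e k : X) * a⁻¹ = b * (e k : X) * b⁻¹) → a = b := by
    intro a ha b hb hab
    have h2 := hc (b⁻¹ * a) (HH.mul_mem (HH.inv_mem hb) ha) (by
      intro g hg
      have h3 := hab (e.symm ⟨g, hg⟩)
      rw [e.apply_symm_apply] at h3
      calc b⁻¹ * a * g = b⁻¹ * (a * g * a⁻¹) * a := by group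
        _ = b⁻¹ * (b * g * b⁻¹) * a := by rw [h3]
        _ = _ := by group)
    exact (inv_mul_eq_one.1 h2).symm
  let θ : G →* X :=
    { toFun := f
      map_one' := by
        apply huniq _ (hf 1) _ (one_mem _)
        intro k
        rw [← H]
        have : (MulAut.conjNormal (1 : G) : MulAut K) k = k := by rw [map_one]; rfl
        rw [this]; group
      map_mul' := by
        intro a b
        apply huniq _ (hf _) _ (HH.mul_mem (hf a) (hf b))
        intro k
        rw [← H]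
        have h2 : (MulAut.conjNormal (a * b) : MulAut K) k = MulAut.conjNormal a (MulAut.conjNormal b k) := by
          rw [map_mul]; rfl
        rw [h2, H, H]; group }
  have hθ : ∀ g, θ g = f g := fun g => rfl
  have hθk : ∀ k : K, θ k = e k := by
    intro k
    rw [hθ]
    apply huniq _ (hf _) _ (hle (e k).2)
    intro k'
    rw [← H]
    have h2 : (MulAut.conjNormal (k : G) : MulAut K) k' = k * k' * k⁻¹ := by
      apply Subtype.ext
      rw [MulAut.conjNormal_apply]; rfl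
    rw [h2, map_mul, map_mul, map_inv]
    rfl
  refine ⟨θ, ?_, hf, hθk⟩
  refine (injective_iff_map_eq_one _).2 fun g hg => ?_
  apply hx.eq_one_of_comm
  intro k hk
  have h2 := H g ⟨k, hk⟩
  have h3 : f g = 1 := hg
  rw [h3, one_mul, inv_one, mul_one] at h2
  have h4 : MulAut.conjNormal g ⟨k, hk⟩ = (⟨k, hk⟩ : K) := e.injective (Subtype.ext h2)
  have h5 := congrArg Subtype.val h4
  rw [MulAut.conjNormal_apply] at h5
  calc g * k = g * k * g⁻¹ * g := by group
    _ = k * g := by rw [h5]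

/-- **A row from a model of the automorphism group**, general form. -/
theorem dead_of_model_gen {HH G₀ : Subgroup X} (hle : G₀ ≤ HH)
    (hc : ∀ h ∈ HH, (∀ g ∈ G₀, h * g = g * h) → h = 1)
    (haut : ∀ α : MulAut G₀, ∃ h ∈ HH, ∀ g : G₀, ((α g : G₀) : X) = h * g * h⁻¹)
    (hkill : ∀ W : Subgroup X, W ≤ HH → (∀ w ∈ W, w * w = 1) → 8 ≤ Nat.card W → 8 ∣ Nat.card W →
      ∃ v ∈ W, v ≠ 1 ∧ Kill HH G₀ v)
    {G : Type u} [Group G] [Finite G] {V K : Subgroup G} (hx : Cx V K) (e : K ≃* G₀) : False := by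
  obtain ⟨θ, hθi, hθm, hθk⟩ := exists_hom hle hc haut hx e
  have hcard : Nat.card (V.map θ) = Nat.card V := Subgroup.card_map_of_injective hθi
  have hp : IsPGroup 2 V := H273.Sidki.elemAb_isPGroup hx.elem
  have hdvd : 8 ∣ Nat.card V := by
    obtain ⟨n, hn⟩ := IsPGroup.iff_card.1 hp
    have h8 := hx.card
    rw [hn] at h8 ⊢
    have h3 : 3 ≤ n := by
      by_contra hlt
      push Not at hlt
      have : 2 ^ n ≤ 2 ^ 2 := Nat.pow_le_pow_right (by norm_num) (by omega)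
      omega
    exact pow_dvd_pow 2 h3
  obtain ⟨v', hv', hv'1, x', hx', hxo, hxi, Hw⟩ := hkill (V.map θ) (by
      rintro _ ⟨g, -, rfl⟩
      exact hθm g) (by
      rintro _ ⟨g, hg, rfl⟩
      rw [← map_mul, hx.sq hg, map_one]) (by rw [hcard]; exact hx.card) (by rw [hcard]; exact hdvd)
  obtain ⟨v, hv, rfl⟩ := hv'
  have hpull : ∀ z ∈ G₀, ∃ k ∈ K, θ k = z := fun z hz =>
    ⟨e.symm ⟨z, hz⟩, (e.symm ⟨z, hz⟩).2, by rw [hθk, e.apply_symm_apply]⟩
  obtain ⟨x, hxK, rfl⟩ := hpull x' hx'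
  rw [orderOf_injective θ hθi] at hxo
  refine hx.false_of (v := v) (x := x) hv (fun h => hv'1 (by rw [h, map_one])) hxo
    (hθi (by rw [map_mul, map_mul, map_inv, map_inv]; exact hxi)) ?_
  intro w hwV hw1 hwx
  obtain ⟨y', hy', hy1, hyo, h1, h2, h3⟩ := Hw (θ w) (hθm w) (by rw [← map_mul, hx.sq hwV, map_one])
    (fun h => hw1 (hθi (by rw [h, map_one]))) (by rw [← map_mul, ← map_mul, hwx.eq])
    (by rw [← map_mul, ← map_mul, (hx.comm hwV hv).eq])
  obtain ⟨y, hyK, rfl⟩ := hpull y' hy'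
  rw [orderOf_injective θ hθi] at hyo
  refine ⟨y, fun h => hy1 (by rw [h, map_one]), hyo, hθi ?_, hθi ?_, hθi ?_⟩
  · rw [map_mul, map_mul]; exact h1
  · rw [map_mul, map_mul]; exact h2
  · rw [map_mul, map_mul, map_inv, map_inv]; exact h3

/-- **A row from a model of the automorphism group**: all inner involutions are `Kill`. -/
theorem dead_of_model {HH G₀ : Subgroup X} (hle : G₀ ≤ HH)
    (hc : ∀ h ∈ HH, (∀ g ∈ G₀, h * g = g * h) → h = 1)
    (haut : ∀ α : MulAut G₀, ∃ h ∈ HH, ∀ g : G₀, ((α g : G₀) : X) = h * g * h⁻¹)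
    (h2 : ∀ a ∈ HH, ∀ b ∈ HH, a ∉ G₀ → b ∉ G₀ → a * b ∈ G₀)
    (hkill : ∀ v ∈ G₀, v * v = 1 → v ≠ 1 → Kill HH G₀ v)
    {G : Type u} [Group G] [Finite G] {V K : Subgroup G} (hx : Cx V K) (e : K ≃* G₀) : False := by
  refine dead_of_model_gen hle hc haut ?_ hx e
  intro W hW hsq h8 _
  by_contra hcon
  push Not at hcon
  have hout : ∀ w ∈ W, w ≠ 1 → w ∉ G₀ := fun w hw hw1 hw0 => hcon w hw hw1 (hkill w hw0 (hsq w hw) hw1)
  have heq : ∀ a ∈ W, ∀ b ∈ W, a ≠ 1 → b ≠ 1 → a = b := by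
    intro a ha b hb ha1 hb1
    by_contra hab
    have h3 := h2 a (hW ha) b (hW hb) (hout a ha ha1) (hout b hb hb1)
    refine hout (a * b) (W.mul_mem ha hb) ?_ h3
    intro h4
    apply hab
    rw [mul_eq_one_iff_eq_inv] at h4
    rw [h4]
    exact inv_eq_of_mul_eq_one_left (hsq b hb)
  have hle2 : Nat.card W ≤ 2 := by
    by_cases hne : ∃ a ∈ W, a ≠ 1
    · obtain ⟨a, ha, ha1⟩ := hne
      have h1 : (W : Set X) ⊆ {1, a} := by
        intro b hb
        by_cases hb1 : b = 1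
        · exact Or.inl hb1
        · exact Or.inr (heq b hb a ha hb1 ha1)
      have h3 := Set.ncard_le_ncard h1 (by simp)
      have h4 : ({1, a} : Set X).ncard ≤ 2 := Set.ncard_insert_le _ _ |>.trans (by simp)
      have h5 : (W : Set X).ncard = Nat.card W := Nat.card_coe_set_eq _
      omega
    · push Not at hne
      have h1 : W = ⊥ := by rw [eq_bot_iff]; intro b hb; exact hne b hb
      rw [h1, card_bot]
      norm_num
  omega

end Cfsg.Agent.H858.SidModel
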