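import Cfsg.Agent.SporadicA.PermTab
import Cfsg.Agent.H858.SidModel

/-!
# TEAM SIDKI (S3010): `Kill` certificates in the automorphism group of a graph (helper858)

`kill_of_cert` : backtracking over the involutions of `autG n A` that centralise `v` and `x`.
-/

set_option autoImplicit false

namespace Cfsg.Agent.H858.SidGraph

open Equiv Cfsg.Agent.SporadicA.PermTab Cfsg.Agent.H858.SidModel

section lists
variable {α : Type}

def allL (f : α → Bool) (l : List α) : Bool := List.rec true (fun a _ ih => band (f a) ih) l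

theorem allL_iff (f : α → Bool) (l : List α) : allL f l = true ↔ ∀ a ∈ l, f a = true := by
  induction l with
  | nil => exact ⟨fun _ a ha => absurd ha List.not_mem_nil, fun _ => rfl⟩
  | cons a l ih =>
    have : allL f (a :: l) = band (f a) (allL f l) := rfl
    rw [this, band_eq_true, ih, List.forall_mem_cons]

def anyL (f : α → Bool) (l : List α) : Bool := List.rec false (fun a _ ih => cond (f a) true ih) l

theorem anyL_iff (f : α → Bool) (l : List α) : anyL f l = true ↔ ∃ a ∈ l, f a = true := by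
  induction l with
  | nil => exact ⟨fun h => Bool.noConfusion h, fun ⟨a, ha, _⟩ => absurd ha List.not_mem_nil⟩
  | cons a l ih =>
    have : anyL f (a :: l) = cond (f a) true (anyL f l) := rfl
    rw [this]
    cases h : f a with
    | true => simp [h]
    | false => simp [h, ih]

end lists

/-- equality of Booleans -/
def beqB (x y : Bool) : Bool := Bool.rec (Bool.rec true false y) (Bool.rec false true y) x

theorem beqB_self (x : Bool) : beqB x x = true := by cases x <;> rfl

/-- the assignments `b ↦ p`, `b' ↦ p'` are compatible with a graph automorphism commuting with the table `T` -/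
def pok (n A T b p b' p' : ℕ) : Bool :=
  band (Nat.beq (bitM n A p' (lk T p)) (bitM n A b' (lk T b)))
    (beqB (Nat.beq (lk T p) p') (Nat.beq (lk T b) b'))

theorem pok_of {n A T : ℕ} {w d : Perm (Fin n)} (hw : w ∈ autG n A) (hd : ∀ i : Fin n, (d i : ℕ) = lk T i)
    (hc : w * d = d * w) (b b' : Fin n) : pok n A T b (w b) b' (w b') = true := by
  have h1 : w (d b) = d (w b) := by rw [← Perm.mul_apply, hc, Perm.mul_apply]
  have h2 : lk T (w b) = (w (d b) : Fin n) := by rw [h1, hd]
  have h3 : lk T b = (d b : Fin n) := (hd b).symm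
  unfold pok
  rw [band_eq_true, h2, h3]
  constructor
  · rw [Nat.beq_eq]
    exact hw b' (d b)
  · have h4 : Nat.beq ((w (d b) : Fin n) : ℕ) (w b' : Fin n) = Nat.beq ((d b : Fin n) : ℕ) (b' : Fin n) := by
      rw [Bool.eq_iff_iff, Nat.beq_eq, Nat.beq_eq]
      constructor
      · intro h; exact congrArg Fin.val (w.injective (Fin.ext h))
      · intro h; exact congrArg (fun z => ((w z : Fin n) : ℕ)) (Fin.ext h)
    rw [h4]
    exact beqB_self _

/-- the new assignment `b ↔ p` is consistent with the list `l` -/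
def cons (n A : ℕ) (DT : List ℕ) (l : List (ℕ × ℕ)) (b p : ℕ) : Bool :=
  allL (fun q : ℕ × ℕ => allL (fun T => band (pok n A T b p q.1 q.2) (pok n A T p b q.1 q.2)) DT) ((b, p) :: (p, b) :: l)

/-- the backtracking search -/
def srch (n A : ℕ) (DT : List ℕ) (leaf : List (ℕ × ℕ) → Bool) (bs : List ℕ) : List (ℕ × ℕ) → Bool :=
  List.rec (fun l => leaf l)
    (fun b _ ih l => allB (fun p => cond (cons n A DT l b p) (ih ((b, p) :: (p, b) :: l)) true) n) bs

theorem srch_spec {n A : ℕ} {DT : List ℕ} {leaf : List (ℕ × ℕ) → Bool} {w : Perm (Fin n)} (hw : w ∈ autG n A)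
    (hww : w * w = 1) (hD : ∀ T ∈ DT, ∃ d : Perm (Fin n), (∀ i : Fin n, (d i : ℕ) = lk T i) ∧ w * d = d * w)
    (bs : List ℕ) : ∀ l : List (ℕ × ℕ), (∀ b ∈ bs, b < n) →
      (∀ q ∈ l, ∃ b : Fin n, q.1 = (b : ℕ) ∧ q.2 = (w b : Fin n)) → srch n A DT leaf bs l = true →
      ∃ l' : List (ℕ × ℕ), (∀ b ∈ bs, ∃ q ∈ l', q.1 = b) ∧ (∀ q ∈ l, q ∈ l') ∧
        (∀ q ∈ l', ∃ b : Fin n, q.1 = (b : ℕ) ∧ q.2 = (w b : Fin n)) ∧ leaf l' = true := by
  induction bs with
  | nil =>
    intro l _ hl h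
    exact ⟨l, fun b hb => absurd hb List.not_mem_nil, fun q hq => hq, hl, h⟩
  | cons b bs ih =>
    intro l hb hl h
    have hbn := hb b List.mem_cons_self
    obtain ⟨b₀, hb₀⟩ : ∃ b₀ : Fin n, (b₀ : ℕ) = b := ⟨⟨b, hbn⟩, rfl⟩
    have h1 : srch n A DT leaf (b :: bs) l =
      allB (fun p => Bool.rec true (srch n A DT leaf bs ((b, p) :: (p, b) :: l)) (cons n A DT l b p)) n := by
      show allB _ n = allB _ n
      congr 1
      ext p
      cases cons n A DT l b p <;> rfl
    rw [h1] at h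
    have h2 := (allB_iff _ _).1 h (w b₀ : Fin n) (w b₀).2
    have hwb : w (w b₀) = b₀ := by
      have := congrArg (fun f : Perm (Fin n) => f b₀) hww
      exact this
    have hl' : ∀ q ∈ ((b, ((w b₀ : Fin n) : ℕ)) :: (((w b₀ : Fin n) : ℕ), b) :: l),
        ∃ c : Fin n, q.1 = (c : ℕ) ∧ q.2 = (w c : Fin n) := by
      intro q hq
      rcases List.mem_cons.1 hq with rfl | hq
      · exact ⟨b₀, hb₀.symm, rfl⟩
      · rcases List.mem_cons.1 hq with rfl | hq
        · exact ⟨w b₀, rfl, by rw [hwb]; exact hb₀.symm⟩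
        · exact hl q hq
    have h3 : cons n A DT l b ((w b₀ : Fin n) : ℕ) = true := by
      unfold cons
      rw [allL_iff]
      intro q hq
      rw [allL_iff]
      intro T hT
      obtain ⟨d, hd, hc⟩ := hD T hT
      obtain ⟨c, hc1, hc2⟩ := hl' q hq
      rw [band_eq_true, hc1, hc2]
      constructor
      · rw [← hb₀]
        exact pok_of hw hd hc b₀ c
      · have := pok_of hw hd hc (w b₀) c
        rwa [hwb, hb₀] at this
    rw [h3] at h2
    obtain ⟨l', a1, a2, a3, a4⟩ := ih _ (fun c hc => hb c (List.mem_cons_of_mem _ hc)) hl' h2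
    refine ⟨l', ?_, fun q hq => a2 q (List.mem_cons_of_mem _ (List.mem_cons_of_mem _ hq)), a3, a4⟩
    intro c hc
    rcases List.mem_cons.1 hc with rfl | hc
    · exact ⟨_, a2 _ List.mem_cons_self, rfl⟩
    · exact a1 c hc

/-- some table of `E` has the values of the list -/
def leafT (E : List ℕ) (l : List (ℕ × ℕ)) : Bool :=
  anyL (fun c => allL (fun q : ℕ × ℕ => Nat.beq (lk c q.1) q.2) l) E

/-- the images of the base points under the tables `DT` -/
def orb (DT bs : List ℕ) : List ℕ := bs.flatMap fun b => DT.map fun T => lk T b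

/-- the tables `P`, `Q` commute -/
def comB (n P Q : ℕ) : Bool := allB (fun i => Nat.beq (lk P (lk Q i)) (lk Q (lk P i))) n

theorem com_of {n P Q : ℕ} {p q : Perm (Fin n)} (hp : ∀ i : Fin n, (p i : ℕ) = lk P i)
    (hq : ∀ i : Fin n, (q i : ℕ) = lk Q i) (h : comB n P Q = true) : p * q = q * p := by
  ext i
  rw [Perm.mul_apply, Perm.mul_apply, hp, hq, hq, hp]
  exact Nat.eq_of_beq_eq_true ((allB_iff _ _).1 h i i.2)

/-- `fifteenth power` -/
def it15 (P i : ℕ) : ℕ :=
  lk P (lk P (lk P (lk P (lk P (lk P (lk P (lk P (lk P (lk P (lk P (lk P (lk P (lk P (lk P i))))))))))))))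

theorem it15_spec {n P : ℕ} {p : Perm (Fin n)} (hp : ∀ i : Fin n, (p i : ℕ) = lk P i) (i : Fin n) :
    ((p ^ 15 : Perm (Fin n)) i : ℕ) = it15 P i := by
  have h1 : p ^ 15 = p * (p * (p * (p * (p * (p * (p * (p * (p * (p * (p * (p * (p * (p * p))))))))))))) := by
    simp only [pow_succ, pow_zero, one_mul, mul_assoc]
  rw [h1]
  unfold it15
  simp only [Perm.mul_apply, hp]

def id15 (n P : ℕ) : Bool := allB (fun i => Nat.beq (it15 P i) i) n

theorem pow15 {n P : ℕ} {p : Perm (Fin n)} (hp : ∀ i : Fin n, (p i : ℕ) = lk P i) (h : id15 n P = true) : p ^ 15 = 1 := by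
  ext i
  rw [it15_spec hp]
  exact Nat.eq_of_beq_eq_true ((allB_iff _ _).1 h i i.2)

theorem odd_of_pow {G : Type*} [Group G] {y : G} (h : y ^ 15 = 1) : Odd (orderOf y) :=
  Odd.of_dvd_nat (by decide : Odd 15) (orderOf_dvd_of_pow_eq_one h)

/-- `P Q P = R` -/
def cjB (n P Q R : ℕ) : Bool := allB (fun i => Nat.beq (lk P (lk Q (lk P i))) (lk R i)) n

/-- certificate for one involution: `(c, Y, Y⁻¹)` -/
def chkY (n A tV tX : ℕ) (DT : List ℕ) (e : ℕ × ℕ × ℕ) : Bool :=
  band (chkInv n e.1 e.1) (band (chkAutBlk n A e.1 0 n) (band (chkInv n e.2.1 e.2.2)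
    (band (chkAutBlk n A e.2.1 0 n) (band (id15 n e.2.1) (band (comB n tV e.2.1) (band (comB n tX e.2.1)
      (band (cjB n e.1 e.2.1 e.2.2) (band (allL (fun T => comB n e.1 T) DT)
        (cond (id15 n e.2.1) (cond (allB (fun i => Nat.beq (lk e.2.1 i) i) n) false true) false)))))))))

/-- the whole certificate -/
structure Cert (n A tV tX : ℕ) : Type where
  /-- the inverse of `x` -/
  tXi : ℕ
  /-- the elements of `⟨v, x⟩` with words -/
  DW : List (ℕ × List ℕ)
  /-- base points -/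
  bs : List ℕ
  /-- the identity table -/
  tI : ℕ
  /-- the involutions -/
  E : List (ℕ × ℕ × ℕ)
  R : ℕ
  O : ℕ

def Cert.DT {n A tV tX : ℕ} (C : Cert n A tV tX) : List ℕ := C.DW.map Prod.fst

structure Cert.Ok {n A tV tX : ℕ} (C : Cert n A tV tX) : Prop where
  invX : chkInv n tX C.tXi = true
  autX : chkAutBlk n A tX 0 n = true
  oddX : id15 n tX = true
  cj : cjB n tV tX C.tXi = true
  words : allL (fun e : ℕ × List ℕ => band (chkWord n e.1 e.2) (allL (fun P => cond (Nat.beq P tV) true (Nat.beq P tX)) e.2)) C.DW = true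
  lt : allL (fun b => Nat.blt b n) C.bs = true
  idt : allB (fun i => Nat.beq (lk C.tI i) i) n = true
  dist : chkDist n A (maskL (orb C.DT C.bs)) C.R C.O = true
  inv : allL (chkY n A tV tX C.DT) C.E = true
  srch : srch n A C.DT (leafT (C.tI :: C.E.map Prod.fst)) C.bs [] = true

theorem rep {n P Q : ℕ} (h : chkInv n P Q = true) : ∃ p : Perm (Fin n), (∀ i : Fin n, (p i : ℕ) = lk P i) ∧
    (∀ i : Fin n, (p⁻¹ i : ℕ) = lk Q i) := ⟨mkPerm P Q h, fun i => rfl, fun i => rfl⟩

theorem mem_aut {n A P Q : ℕ} (h : chkInv n P Q = true) (ha : chkAutBlk n A P 0 n = true) {p : Perm (Fin n)}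
    (hp : ∀ i : Fin n, (p i : ℕ) = lk P i) : p ∈ autG n A := by
  have h1 := mkPerm_mem_autG (A := A) h (rowsOK_of_chk (chkInv_lt h) (chkInv_inj h) ha)
  have h2 : p = mkPerm P Q h := by
    ext i
    rw [hp]; rfl
  rwa [h2]

theorem kill_of_cert {n A tV tX : ℕ} (hn : 0 < n) {HH G₀ : Subgroup (Perm (Fin n))} (hHH : HH = autG n A)
    (hodd : ∀ y ∈ HH, Odd (orderOf y) → y ∈ G₀) {v : Perm (Fin n)} (hv : ∀ i : Fin n, (v i : ℕ) = lk tV i)
    (hvv : v * v = 1) (C : Cert n A tV tX) (h : C.Ok) : Kill HH G₀ v := by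
  subst hHH
  obtain ⟨x, hx, hxi⟩ := rep h.invX
  have hxa := mem_aut h.invX h.autX hx
  have hx15 := pow15 hx h.oddX
  have hxo := odd_of_pow hx15
  have hvi : v⁻¹ = v := inv_eq_of_mul_eq_one_left hvv
  refine ⟨x, hodd x hxa hxo, hxo, ?_, ?_⟩
  · rw [hvi]
    ext i
    rw [Perm.mul_apply, Perm.mul_apply, hv, hx, hv, hxi]
    exact Nat.eq_of_beq_eq_true ((allB_iff _ _).1 h.cj i i.2)
  · intro w hw hww hw1 hwx hwv
    have hwi : w⁻¹ = w := inv_eq_of_mul_eq_one_left hww
    have hD : ∀ T ∈ C.DT, ∃ d : Perm (Fin n), (∀ i : Fin n, (d i : ℕ) = lk T i) ∧ w * d = d * w := by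
      intro T hT
      obtain ⟨e, he, rfl⟩ := List.mem_map.1 hT
      have h1 := (allL_iff _ _).1 h.words e he
      rw [band_eq_true] at h1
      obtain ⟨d, hd, hdi⟩ := InG.word (G := Subgroup.centralizer ({w} : Set (Perm (Fin n)))) (L := e.2) (S := e.1) (by
        intro P hP
        have h2 := (allL_iff _ _).1 h1.2 P hP
        cases h3 : Nat.beq P tV with
        | true =>
          rw [Nat.eq_of_beq_eq_true h3]
          exact ⟨v, Subgroup.mem_centralizer_singleton_iff.2 hwv.symm, hv⟩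
        | false =>
          rw [h3, cond_false] at h2
          rw [Nat.eq_of_beq_eq_true h2]
          exact ⟨x, Subgroup.mem_centralizer_singleton_iff.2 hwx.symm, hx⟩) h1.1
      exact ⟨d, hdi, (Subgroup.mem_centralizer_singleton_iff.1 hd).symm⟩
    obtain ⟨l', a1, -, a3, a4⟩ := srch_spec hw hww hD C.bs [] (by
      intro b hb
      have := (allL_iff _ _).1 h.lt b hb
      exact Nat.blt_eq ▸ this) (fun q hq => absurd hq List.not_mem_nil) h.srch
    unfold leafT at a4
    rw [anyL_iff] at a4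
    obtain ⟨c, hcE, hc⟩ := a4
    have hcw : ∀ b : Fin n, (b : ℕ) ∈ C.bs → ((w b : Fin n) : ℕ) = lk c b := by
      intro b hb
      obtain ⟨q, hq, hqb⟩ := a1 b hb
      obtain ⟨b', h1, h2⟩ := a3 q hq
      have h3 := Nat.eq_of_beq_eq_true ((allL_iff _ _).1 hc q hq)
      have h4 : b = b' := Fin.ext (hqb.symm.trans h1)
      rw [h4, ← h2, ← h3, h1]
    -- two automorphisms commuting with the tables and agreeing on the base are equal
    have huniq : ∀ γ ∈ autG n A, (∀ T ∈ C.DT, ∃ d : Perm (Fin n), (∀ i : Fin n, (d i : ℕ) = lk T i) ∧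
        w * d = d * w ∧ γ * d = d * γ) → (∀ b : Fin n, (b : ℕ) ∈ C.bs → w b = γ b) → w = γ := by
      intro γ hγ hγD hb
      have h1 := eq_one_of_dist h.dist (γ⁻¹ * w) (mul_mem (inv_mem hγ) hw) (by
        intro f hf
        unfold orb at hf
        rw [List.mem_flatMap] at hf
        obtain ⟨b, hbs, hf⟩ := hf
        rw [List.mem_map] at hf
        obtain ⟨T, hT, rfl⟩ := hf
        have hbn : b < n := by
          have := (allL_iff _ _).1 h.lt b hbs
          exact Nat.blt_eq ▸ this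
        obtain ⟨d, hd, hd1, hd2⟩ := hγD T hT
        have h2 : lk T b = ((d ⟨b, hbn⟩ : Fin n) : ℕ) := (hd ⟨b, hbn⟩).symm
        refine ⟨by rw [h2]; exact (d ⟨b, hbn⟩).2, fun i hi => ?_⟩
        have h3 : i = d ⟨b, hbn⟩ := Fin.ext (hi.trans h2)
        have h4 : w (d ⟨b, hbn⟩) = γ (d ⟨b, hbn⟩) := by
          rw [← Perm.mul_apply, ← Perm.mul_apply, hd1, hd2, Perm.mul_apply, Perm.mul_apply, hb ⟨b, hbn⟩ hbs]
        rw [h3, Perm.mul_apply, h4]
        exact Equiv.symm_apply_apply _ _)
      exact (inv_mul_eq_one.1 h1).symm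
    rcases List.mem_cons.1 hcE with rfl | hcE
    · exfalso
      apply hw1
      refine huniq 1 (one_mem _) (fun T hT => ?_) (fun b hb => ?_)
      · obtain ⟨d, hd, hd1⟩ := hD T hT
        exact ⟨d, hd, hd1, by rw [one_mul, mul_one]⟩
      · apply Fin.ext
        rw [hcw b hb]
        exact Nat.eq_of_beq_eq_true ((allB_iff _ _).1 h.idt b b.2)
    · obtain ⟨e, he, rfl⟩ := List.mem_map.1 hcE
      have h1 := (allL_iff _ _).1 h.inv e he
      unfold chkY at h1
      simp only [band_eq_true] at h1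
      obtain ⟨b1, b2, b3, b4, b5, b6, b7, b8, b9, b10⟩ := h1
      obtain ⟨γ, hγ, hγi⟩ := rep b1
      obtain ⟨y, hy, hyi⟩ := rep b3
      have hγa := mem_aut b1 b2 hγ
      have hya := mem_aut b3 b4 hy
      have hyo := odd_of_pow (pow15 hy b5)
      have hwγ : w = γ := by
        refine huniq γ hγa (fun T hT => ?_) (fun b hb => ?_)
        · obtain ⟨d, hd, hd1⟩ := hD T hT
          exact ⟨d, hd, hd1, com_of hγ hd ((allL_iff _ _).1 b9 T hT)⟩
        · apply Fin.ext
          rw [hcw b hb, hγ]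
      refine ⟨y, hodd y hya hyo, ?_, hyo, com_of hv hy b6, com_of hx hy b7, ?_⟩
      · rintro rfl
        rw [b5, cond_true] at b10
        have h2 : allB (fun i => Nat.beq (lk e.2.1 i) i) n = true := by
          rw [allB_iff]
          intro i hi
          rw [Nat.beq_eq]
          exact (hy ⟨i, hi⟩).symm
        rw [h2] at b10
        exact Bool.noConfusion b10
      · rw [hwi, hwγ]
        ext i
        rw [Perm.mul_apply, Perm.mul_apply, hγ, hy, hγ, hyi]
        exact Nat.eq_of_beq_eq_true ((allB_iff _ _).1 b8 i i.2)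

end Cfsg.Agent.H858.SidGraph
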