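import Cfsg.Agent.H282.SK.Def
import Cfsg.Agent.KFacts.J3
import Cfsg.Agent.KFacts.J3Sheet
import Cfsg.Agent.KFacts.J2.Facts
import Cfsg.Agent.H898.J3Cent

/-!
# TEAM SIDKI (S3010): the row of `J₃` (helper858)

An involution `v ∈ V ∩ K` inverts `x` of order 17, `C_K(x) = ⟨x⟩`. So some outer involution `w ∈ V` commutes with `x`;
it is the only involution of `C_G(x)`, hence `w^c ∈ V` for all `c ∈ C_K(v)`. By the structure `2^{1+4}_- : A₅` of
`C_K(v)`, `w` centralises `C_K(v)`, so it induces an inner automorphism.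
-/

set_option autoImplicit false

namespace Cfsg.Agent.H858.SidJ3

open Cfsg Subgroup
open Cfsg.Agent.H282.SK
open Cfsg.Agent.J2Type.Model Cfsg.Agent.J3Type.OneClass Cfsg.Agent.J2Type.CStruct

universe u

open scoped commutatorElement

theorem eq_one_of {G : Type*} [Group G] {a : G} (h2 : a * a = 1) {n : ℕ} (hn : Odd n) (h : a ^ n = 1) : a = 1 := by
  obtain ⟨k, rfl⟩ := hn
  rw [pow_succ, pow_mul, pow_two, h2, one_pow, one_mul] at h
  exact h

section K
variable {K : Type*} [Group K] [Finite K]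

/-- every involution inverts an element of order 17 -/
theorem exists_inv (h : Spor.IsoJ3 K) {t : K} (ht : orderOf t = 2) :
    ∃ x : K, orderOf x = 17 ∧ t * x * t⁻¹ = x⁻¹ := by
  obtain ⟨-, z, Q, v, ρ, n, u, F⟩ := KFacts.J3.exists_facts h
  have h17 : Fact (Nat.Prime 17) := ⟨by norm_num⟩
  obtain ⟨y, hy⟩ := exists_prime_orderOf_dvd_card' (G := K) 17 (by rw [F.card_K]; norm_num)
  obtain ⟨hc, hn⟩ := H898.J3Cent.seventeen h hy
  have h2 : Fact (Nat.Prime 2) := ⟨Nat.prime_two⟩
  obtain ⟨s, hs⟩ := exists_prime_orderOf_dvd_card' (G := ↥(normalizer ((zpowers y : Subgroup K) : Set K))) 2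
    (by rw [hn]; norm_num)
  have hss : (s : K) * s = 1 := by
    have h3 : s * s = 1 := by rw [← pow_two, ← hs, pow_orderOf_eq_one]
    exact congrArg Subtype.val h3
  have hs1 : (s : K) ≠ 1 := by
    intro h3
    have h4 : s = 1 := Subtype.ext h3
    rw [h4, orderOf_one] at hs
    norm_num at hs
  have hsi : (s : K)⁻¹ = s := inv_eq_of_mul_eq_one_left hss
  -- `s y s⁻¹ = y ^ k`
  have h3 : (s : K) * y * (s : K)⁻¹ ∈ zpowers y := (mem_normalizer_iff.1 s.2 y).1 (mem_zpowers y)
  obtain ⟨k, hk⟩ := mem_zpowers_iff.1 h3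
  have h4 : y ^ (k * k) = y := by
    have h5 : (s : K) * y ^ k * (s : K)⁻¹ = (y ^ k) ^ k := by rw [← conj_zpow, ← hk]
    have h6 : (s : K) * y ^ k * (s : K)⁻¹ = y := by
      rw [hk, hsi]
      calc (s : K) * (s * y * s) * s = (s * s) * y * (s * s) := by group
        _ = y := by rw [hss]; group
    rw [zpow_mul, ← h5, h6]
  have h5 : (17 : ℤ) ∣ k * k - 1 := by
    have h6 : y ^ (k * k - 1) = 1 := by rw [zpow_sub, h4, zpow_one, mul_inv_cancel]
    have h7 := orderOf_dvd_iff_zpow_eq_one.2 h6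
    rw [hy] at h7
    exact_mod_cast h7
  have h6 : (17 : ℤ) ∣ (k - 1) * (k + 1) := by
    have : (k - 1) * (k + 1) = k * k - 1 := by ring
    rw [this]; exact h5
  have hinv : (s : K) * y * (s : K)⁻¹ = y⁻¹ := by
    rcases (Int.Prime.dvd_mul' (p := 17) (by norm_num) h6) with h7 | h7
    · exfalso
      have h8 : y ^ (k - 1) = 1 := by
        rw [← orderOf_dvd_iff_zpow_eq_one, hy]; exact_mod_cast h7
      have h9 : (s : K) * y * (s : K)⁻¹ = y := by
        rw [← hk]
        have : k = (k - 1) + 1 := by ring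
        rw [this, zpow_add, h8, one_mul, zpow_one]
      have h10 : (s : K) ∈ centralizer ({y} : Set K) :=
        mem_centralizer_singleton_iff.2 (mul_inv_eq_iff_eq_mul.1 h9)
      have h11 := Subgroup.orderOf_dvd_natCard _ h10
      rw [hc] at h11
      exact hs1 (eq_one_of hss (n := 17) (by decide) (orderOf_dvd_iff_pow_eq_one.1 h11))
    · have h8 : y ^ (k + 1) = 1 := by
        rw [← orderOf_dvd_iff_zpow_eq_one, hy]; exact_mod_cast h7
      rw [← hk]
      rw [zpow_add, zpow_one] at h8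
      exact eq_inv_of_mul_eq_one_left h8
  obtain ⟨a, ha⟩ := F.one s hs1 hss
  obtain ⟨b, hb⟩ := F.one t (fun h1 => by rw [h1, orderOf_one] at ht; norm_num at ht)
    (by rw [← pow_two, ← ht, pow_orderOf_eq_one])
  refine ⟨b * a⁻¹ * y * (b * a⁻¹)⁻¹, ?_, ?_⟩
  · have h9 := orderOf_injective (MulAut.conj (b * a⁻¹)).toMonoidHom (MulAut.conj (b * a⁻¹)).injective y
    rw [hy] at h9
    exact h9
  · have h7 : t = b * a⁻¹ * s * (b * a⁻¹)⁻¹ := by
      rw [← ha, ← hb]; group
    calc t * (b * a⁻¹ * y * (b * a⁻¹)⁻¹) * t⁻¹ = b * a⁻¹ * (s * y * (s : K)⁻¹) * (b * a⁻¹)⁻¹ := by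
          rw [h7]; group
      _ = b * a⁻¹ * y⁻¹ * (b * a⁻¹)⁻¹ := by rw [hinv]
      _ = _ := by group

end K

theorem dead_j3 : DeadS.{u} (fun K _ => Spor.IsoJ3 K) := by
  intro G _ _ V K h hK
  have := h.norm
  obtain ⟨-, z, Q, v, ρ, n, u, F⟩ := KFacts.J3.exists_facts hK
  have hz2 : orderOf z = 2 := by
    refine orderOf_eq_prime ?_ fun h1 => F.model.z_ne (Subtype.ext h1)
    rw [pow_two]; exact congrArg Subtype.val F.model.z_sq
  have hone : ∀ x y : K, orderOf x = 2 → orderOf y = 2 → IsConj x y := by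
    intro x y hx hy
    obtain ⟨a, ha⟩ := F.one x (fun h1 => by rw [h1, orderOf_one] at hx; norm_num at hx)
      (by rw [← pow_two, ← hx, pow_orderOf_eq_one])
    obtain ⟨b, hb⟩ := F.one y (fun h1 => by rw [h1, orderOf_one] at hy; norm_num at hy)
      (by rw [← pow_two, ← hy, pow_orderOf_eq_one])
    refine isConj_iff.2 ⟨b * a⁻¹, ?_⟩
    rw [← ha, ← hb]; group
  have hin : n * z * n⁻¹ ∈ Q.map (centralizer ({z} : Set K)).subtype := by
    rw [F.nz]; exact ⟨v 0, F.model.v_mem 0, rfl⟩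
  have hnz : n * z * n⁻¹ ≠ z := by
    rw [F.nz]
    intro h1
    apply zv_ne_z F.model 0 0
    rw [zp_zero, one_mul]; exact Subtype.ext h1
  -- automorphisms
  set φ : G →* MulAut K := MulAut.conjNormal with hφ
  have hφa : ∀ (g : G) (k : K), ((φ g k : K) : G) = g * k * g⁻¹ := fun g k => MulAut.conjNormal_apply g k
  have hin0 : ∀ (g : G) (k : K), φ g = MulAut.conj k → g = k := by
    intro g k hg
    have h1 : (k : G)⁻¹ * g = 1 := by
      apply h.eq_one_of_comm
      intro x hx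
      have h2 := hφa g ⟨x, hx⟩
      rw [hg, MulAut.conj_apply] at h2
      have h3 : (k : G) * x * (k : G)⁻¹ = g * x * g⁻¹ := h2
      calc (k : G)⁻¹ * g * x = (k : G)⁻¹ * (g * x * g⁻¹) * g := by group
        _ = (k : G)⁻¹ * ((k : G) * x * (k : G)⁻¹) * g := by rw [h3]
        _ = _ := by group
    exact (inv_mul_eq_one.1 h1).symm
  have hmem : ∀ g : G, φ g ∈ (MulAut.conj : K →* MulAut K).range → g ∈ K := by
    rintro g ⟨k, hk⟩
    rw [hin0 g k hk.symm]
    exact k.2
  have hout : ∀ a b : G, a ∉ K → b ∉ K → a * b ∈ K := by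
    intro a b ha hb
    apply hmem
    rw [map_mul]
    rcases KFacts.J3Sheet.index_le F.card_C F.model hin hnz F.gen (KFacts.J3Sheet.odd_index hone hz2) with h1 | h1
    · exfalso
      apply ha
      apply hmem
      rw [Subgroup.index_eq_one.1 h1]; trivial
    · exact (Subgroup.mul_mem_iff_of_index_two h1).2 (by
        constructor
        · intro h2; exact absurd (hmem a h2) ha
        · intro h2; exact absurd (hmem b h2) hb)
  -- an inner involution of `V`
  obtain ⟨t, htV, ht1, htK⟩ : ∃ t ∈ V, t ≠ 1 ∧ t ∈ K := by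
    by_contra hcon
    push Not at hcon
    have hmul : ∀ a ∈ V, ∀ b ∈ V, a ≠ 1 → b ≠ 1 → a = b := by
      intro a ha b hb ha1 hb1
      by_contra hab
      have h1 := hout a b (hcon a ha ha1) (hcon b hb hb1)
      refine hcon (a * b) (V.mul_mem ha hb) ?_ h1
      intro h2
      apply hab
      rw [mul_eq_one_iff_eq_inv, h.inv_eq hb] at h2
      exact h2
    have hle : Nat.card V ≤ 2 := by
      by_cases hne : ∃ a ∈ V, a ≠ 1
      · obtain ⟨a, ha, ha1⟩ := hne
        have h1 : (V : Set G) ⊆ {1, a} := by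
          intro b hb
          by_cases hb1 : b = 1
          · exact Or.inl hb1
          · exact Or.inr (hmul b hb a ha hb1 ha1)
        have h2 := Set.ncard_le_ncard h1 (by simp)
        have h3 : ({1, a} : Set G).ncard ≤ 2 := Set.ncard_insert_le _ _ |>.trans (by simp)
        have h4 : (V : Set G).ncard = Nat.card V := Nat.card_coe_set_eq _
        omega
      · push Not at hne
        have h1 : V = ⊥ := by rw [eq_bot_iff]; intro b hb; exact hne b hb
        rw [h1, card_bot]
        norm_num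
    have := h.card
    omega
  have htt : (⟨t, htK⟩ : K) * ⟨t, htK⟩ = 1 := Subtype.ext (h.sq htV)
  have ht2 : orderOf (⟨t, htK⟩ : K) = 2 :=
    orderOf_eq_prime (by rw [pow_two, htt]) fun h1 => ht1 (congrArg Subtype.val h1)
  obtain ⟨x, hx17, hxi⟩ := exists_inv hK ht2
  obtain ⟨hcx, -⟩ := H898.J3Cent.seventeen hK hx17
  have hxo : orderOf (x : G) = 17 := by rw [Subgroup.orderOf_coe, hx17]
  have hxi' : t * (x : G) * t⁻¹ = (x : G)⁻¹ := congrArg Subtype.val hxi
  -- elements of `K` commuting with `x`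
  have hpow : ∀ c : G, c ∈ K → c * x = x * c → c ^ 17 = 1 := by
    intro c hc hcx'
    have h1 : (⟨c, hc⟩ : K) ∈ centralizer ({x} : Set K) :=
      mem_centralizer_singleton_iff.2 (Subtype.ext hcx')
    have h2 := Subgroup.orderOf_dvd_natCard _ h1
    rw [hcx] at h2
    exact congrArg Subtype.val (orderOf_dvd_iff_pow_eq_one.1 h2)
  have hzp : ∀ c : G, c ∈ K → c * x = x * c → ∃ k : ℤ, (x : G) ^ k = c := by
    intro c hc hcx'
    have h1 : (⟨c, hc⟩ : K) ∈ centralizer ({x} : Set K) :=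
      mem_centralizer_singleton_iff.2 (Subtype.ext hcx')
    have h2 : zpowers x = centralizer ({x} : Set K) := by
      apply Subgroup.eq_of_le_of_card_ge (zpowers_le.2 (mem_centralizer_singleton_iff.2 rfl))
      rw [hcx, Nat.card_zpowers, hx17]
    rw [← h2] at h1
    obtain ⟨k, hk⟩ := mem_zpowers_iff.1 h1
    exact ⟨k, congrArg Subtype.val hk⟩
  obtain ⟨w, hwV, hw1, hwx⟩ := h.t0 (v := t) (x := (x : G)) htV (by rw [hxo]; decide) hxi'
  have hww := h.sq hwV
  have hwK : w ∉ K := fun hwK => hw1 (eq_one_of hww (n := 17) (by decide) (hpow w hwK hwx))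
  -- `w ^ c ∈ V` for `c ∈ C_K(t)`
  have key : ∀ c ∈ K, c * t = t * c → c * w * c⁻¹ ∈ V := by
    intro c hc hct
    have hco : orderOf (c * (x : G) * c⁻¹) = 17 := by
      have := orderOf_injective (MulAut.conj c).toMonoidHom (MulAut.conj c).injective (x : G)
      rw [← hxo, ← this]; simp
    obtain ⟨w', hw'V, hw'1, hw'x⟩ := h.t0 (v := t) (x := c * (x : G) * c⁻¹) htV (by rw [hco]; decide) (by
      calc t * (c * x * c⁻¹) * t⁻¹ = (t * c) * x * (t * c)⁻¹ := by group
        _ = (c * t) * x * (c * t)⁻¹ := by rw [hct]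
        _ = c * (t * x * t⁻¹) * c⁻¹ := by group
        _ = c * (x : G)⁻¹ * c⁻¹ := by rw [hxi']
        _ = _ := by group)
    set w₂ : G := c⁻¹ * w' * c with hw₂
    have hw₂2 : w₂ * w₂ = 1 := by
      calc w₂ * w₂ = c⁻¹ * (w' * w') * c := by rw [hw₂]; group
        _ = 1 := by rw [h.sq hw'V]; group
    have hw₂1 : w₂ ≠ 1 := by
      intro h1
      apply hw'1
      calc w' = c * w₂ * c⁻¹ := by rw [hw₂]; group
        _ = 1 := by rw [h1]; group
    have hw₂x : w₂ * x = x * w₂ := by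
      have h1 : w' * (c * x * c⁻¹) = (c * x * c⁻¹) * w' := hw'x
      calc w₂ * x = c⁻¹ * (w' * (c * x * c⁻¹)) * c := by rw [hw₂]; group
        _ = c⁻¹ * ((c * x * c⁻¹) * w') * c := by rw [h1]
        _ = _ := by rw [hw₂]; group
    have hw₂K : w₂ ∉ K := fun h1 => hw₂1 (eq_one_of hw₂2 (n := 17) (by decide) (hpow w₂ h1 hw₂x))
    have huK := hout w₂ w hw₂K hwK
    have hux : (w₂ * w) * x = x * (w₂ * w) := by
      have h1 : w * x = x * w := hwx
      calc (w₂ * w) * x = w₂ * (w * x) := by group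
        _ = w₂ * x * w := by rw [h1]; group
        _ = _ := by rw [hw₂x]; group
    obtain ⟨k, hk⟩ := hzp _ huK hux
    have hcomm : (w₂ * w) * w = w * (w₂ * w) := by
      rw [← hk]
      exact ((Commute.zpow_left (show Commute (x : G) w from hwx.symm) k)).eq
    have h3 : w₂ * w = w * w₂ := by
      have h4 : w₂ = w * (w₂ * w) := by
        rw [← hcomm, mul_assoc, hww, mul_one]
      calc w₂ * w = (w * w) * (w₂ * w) := by rw [hww]; group
        _ = w * (w * (w₂ * w)) := by group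
        _ = w * w₂ := by rw [← h4]
    have h4 : (w₂ * w) * (w₂ * w) = 1 := by
      calc (w₂ * w) * (w₂ * w) = w₂ * (w * w₂) * w := by group
        _ = w₂ * (w₂ * w) * w := by rw [h3]
        _ = (w₂ * w₂) * (w * w) := by group
        _ = 1 := by rw [hw₂2, hww, one_mul]
    have h5 := eq_one_of h4 (n := 17) (by decide) (hpow _ huK hux)
    have h6 : w₂ = w := by
      rw [mul_eq_one_iff_eq_inv] at h5
      rw [h5]; exact inv_eq_of_mul_eq_one_left hww
    have h7 : c * w * c⁻¹ = w' := by rw [← h6, hw₂]; group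
    rw [h7]; exact hw'V
  -- transport to `z`
  obtain ⟨g, hg⟩ := F.one ⟨t, htK⟩ (fun h1 => ht1 (congrArg Subtype.val h1)) htt
  have hg' : (g : G) * z * (g : G)⁻¹ = t := congrArg Subtype.val hg
  set w' : G := (g : G)⁻¹ * w * g with hw'
  set V' : Subgroup G := V.map (MulAut.conj (g : G)⁻¹).toMonoidHom with hV'
  have hV'm : ∀ a : G, a ∈ V → (g : G)⁻¹ * a * g ∈ V' := by
    intro a ha
    refine ⟨a, ha, ?_⟩
    show (g : G)⁻¹ * a * (g : G)⁻¹⁻¹ = _
    rw [inv_inv]
  have hV'i : ∀ a ∈ V', ∃ b ∈ V, a = (g : G)⁻¹ * b * g := by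
    rintro a ⟨b, hb, rfl⟩
    refine ⟨b, hb, ?_⟩
    show (g : G)⁻¹ * b * (g : G)⁻¹⁻¹ = _
    rw [inv_inv]
  have hV'c : ∀ a ∈ V', ∀ b ∈ V', a * b = b * a := by
    intro a ha b hb
    obtain ⟨a, ha', rfl⟩ := hV'i a ha
    obtain ⟨b, hb', rfl⟩ := hV'i b hb
    have h1 : a * b = b * a := (h.comm ha' hb').eq
    calc (g : G)⁻¹ * a * g * ((g : G)⁻¹ * b * g) = (g : G)⁻¹ * (a * b) * g := by group
      _ = (g : G)⁻¹ * (b * a) * g := by rw [h1]
      _ = _ := by group
  have hV's : ∀ a ∈ V', a * a = 1 := by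
    intro a ha
    obtain ⟨a, ha', rfl⟩ := hV'i a ha
    calc (g : G)⁻¹ * a * g * ((g : G)⁻¹ * a * g) = (g : G)⁻¹ * (a * a) * g := by group
      _ = 1 := by rw [h.sq ha']; group
  have hw'V : w' ∈ V' := hV'm w hwV
  have hzV : (z : G) ∈ V' := by
    have : (z : G) = (g : G)⁻¹ * t * g := by rw [← hg']; group
    rw [this]; exact hV'm t htV
  have key' : ∀ c : K, c * z = z * c → (c : G) * w' * (c : G)⁻¹ ∈ V' := by
    intro c hc
    have hc' : (c : G) * z = z * c := congrArg Subtype.val hc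
    have h1 := key ((g : G) * c * (g : G)⁻¹) (K.mul_mem (K.mul_mem g.2 c.2) (K.inv_mem g.2)) (by
      rw [← hg']
      calc (g : G) * c * (g : G)⁻¹ * (g * z * (g : G)⁻¹) = g * (c * z) * (g : G)⁻¹ := by group
        _ = g * (z * c) * (g : G)⁻¹ := by rw [hc']
        _ = _ := by group)
    have h2 := hV'm _ h1
    have h3 : (g : G)⁻¹ * ((g : G) * c * (g : G)⁻¹ * w * ((g : G) * c * (g : G)⁻¹)⁻¹) * g = c * w' * (c : G)⁻¹ := by
      rw [hw']; group
    rwa [h3] at h2
  -- the commutators with `w'`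
  have hfin : Finite (centralizer ({z} : Set K)) := inferInstance
  set N : Subgroup (centralizer ({z} : Set K)) :=
    ((V'.comap K.subtype).comap (centralizer ({z} : Set K)).subtype).normalCore with hN
  have hNle : ∀ a ∈ N, ((a : K) : G) ∈ V' := fun a ha =>
    normalCore_le ((V'.comap K.subtype).comap (centralizer ({z} : Set K)).subtype) ha
  have hNn : ∀ c, ∀ a ∈ N, c * a * c⁻¹ ∈ N := fun c a ha => (normalCore_normal _).conj_mem a ha c
  have hN2 : IsPGroup 2 N := by
    rintro ⟨a, ha⟩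
    refine ⟨1, Subtype.ext (Subtype.ext (Subtype.ext ?_))⟩
    rw [pow_one]
    show ((a : K) : G) ^ 2 = 1
    rw [pow_two]
    exact hV's _ (hNle a ha)
  have hNQ := KFacts.J2.Facts.normal_le F.model hN2 hNn
  have hNz : ∀ a ∈ N, a = 1 ∨ a = zc z := by
    rcases KFacts.QMinus.irr F.model hNQ hNn with h1 | h1
    · exact h1
    · exfalso
      have h2 := F.model.v_anti 0 1 (by decide)
      have h3 : v 0 * v 1 = v 1 * v 0 := by
        apply Subtype.ext
        apply Subtype.ext
        exact hV'c _ (hNle _ (h1 ▸ F.model.v_mem 0)) _ (hNle _ (h1 ▸ F.model.v_mem 1))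
      rw [h3] at h2
      have h4 := mul_right_cancel (b := v 1 * v 0) ((one_mul _).trans h2)
      exact F.model.z_ne h4.symm
  have hcen : ∀ c : centralizer ({z} : Set K), ((c : K) : G) * w' * ((c : K) : G)⁻¹ = w' ∨
      ((c : K) : G) * w' * ((c : K) : G)⁻¹ = z * w' := by
    intro c
    have hw'i : w'⁻¹ = w' := inv_eq_of_mul_eq_one_left (hV's _ hw'V)
    have hK1 : ((c : K) : G) * w' * ((c : K) : G)⁻¹ * w'⁻¹ ∈ K := by
      have h1 : w' * ((c : K) : G)⁻¹ * w'⁻¹ ∈ K := h.norm.conj_mem _ (K.inv_mem (c : K).2) w'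
      have h2 : ((c : K) : G) * w' * ((c : K) : G)⁻¹ * w'⁻¹ = ((c : K) : G) * (w' * ((c : K) : G)⁻¹ * w'⁻¹) := by group
      rw [h2]; exact K.mul_mem (c : K).2 h1
    have hVc : ((c : K) : G) * w' * ((c : K) : G)⁻¹ * w'⁻¹ ∈ V' :=
      V'.mul_mem (key' c (mem_centralizer_singleton_iff.1 c.2)) (V'.inv_mem hw'V)
    have hCz : (⟨_, hK1⟩ : K) ∈ centralizer ({z} : Set K) := by
      rw [mem_centralizer_singleton_iff]
      exact Subtype.ext (hV'c _ hVc _ hzV)
    have hmN : (⟨⟨_, hK1⟩, hCz⟩ : centralizer ({z} : Set K)) ∈ N := by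
      intro d
      show ((d : K) : G) * (((c : K) : G) * w' * ((c : K) : G)⁻¹ * w'⁻¹) * ((d : K) : G)⁻¹ ∈ V'
      have e1 : ((d : K) : G) * (((c : K) : G) * w' * ((c : K) : G)⁻¹ * w'⁻¹) * ((d : K) : G)⁻¹ =
          ((((d * c : centralizer ({z} : Set K)) : K)) : G) * w' * ((((d * c : centralizer ({z} : Set K)) : K)) : G)⁻¹ *
          (((d : K) : G) * w' * ((d : K) : G)⁻¹)⁻¹ := by
        simp only [Subgroup.coe_mul]
        group
      rw [e1]
      exact V'.mul_mem (key' _ (mem_centralizer_singleton_iff.1 (d * c).2))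
        (V'.inv_mem (key' _ (mem_centralizer_singleton_iff.1 d.2)))
    rcases hNz _ hmN with h1 | h1
    · left
      have h2 : ((c : K) : G) * w' * ((c : K) : G)⁻¹ * w'⁻¹ = 1 := congrArg (fun a : centralizer ({z} : Set K) => ((a : K) : G)) h1
      exact mul_inv_eq_one.1 h2
    · right
      have h2 : ((c : K) : G) * w' * ((c : K) : G)⁻¹ * w'⁻¹ = z := congrArg (fun a : centralizer ({z} : Set K) => ((a : K) : G)) h1
      exact mul_inv_eq_iff_eq_mul.1 h2
  -- `w'` centralises `C(z)`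
  have hzw : (z : G) * w' = w' * z := hV'c _ hzV _ hw'V
  have hzz : (z : G) * z = 1 := hV's _ hzV
  have hcz : ∀ c : centralizer ({z} : Set K), ((c : K) : G) * z = z * ((c : K) : G) := fun c =>
    congrArg Subtype.val (mem_centralizer_singleton_iff.1 c.2)
  obtain ⟨D, hD⟩ : ∃ D : Subgroup (centralizer ({z} : Set K)), ∀ c : centralizer ({z} : Set K),
      c ∈ D ↔ ((c : K) : G) * w' * ((c : K) : G)⁻¹ = w' := by
    refine ⟨(centralizer ({w'} : Set G)).comap (K.subtype.comp (centralizer ({z} : Set K)).subtype), fun c => ?_⟩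
    rw [mem_comap, mem_centralizer_singleton_iff, mul_inv_eq_iff_eq_mul]
    exact Iff.rfl
  have hperf : (⊤ : Subgroup (centralizer ({z} : Set K))) ≤ D := by
    rw [← KFacts.QMinus.perfect F.model, _root_.commutator_def, Subgroup.commutator_le]
    intro a _ b _
    rw [hD]
    -- `c w' c⁻¹ = ζ w'`
    have hz' : ∀ c : centralizer ({z} : Set K), ∃ ζ : G, (ζ = 1 ∨ ζ = z) ∧
        ((c : K) : G) * w' * ((c : K) : G)⁻¹ = ζ * w' := by
      intro c
      rcases hcen c with h1 | h1
      · exact ⟨1, Or.inl rfl, by rw [h1, one_mul]⟩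
      · exact ⟨z, Or.inr rfl, h1⟩
    have hζc : ∀ ζ : G, (ζ = 1 ∨ ζ = z) → ∀ c : centralizer ({z} : Set K), ((c : K) : G) * ζ = ζ * ((c : K) : G) := by
      rintro ζ (rfl | rfl) c
      · rw [one_mul, mul_one]
      · exact hcz c
    obtain ⟨α, hα, ha⟩ := hz' a
    obtain ⟨β, hβ, hb⟩ := hz' b
    have hαβ : α * β = β * α := by
      rcases hα with rfl | rfl <;> rcases hβ with rfl | rfl <;> simp
    have h1 : ((a : K) : G) * ((b : K) : G) * w' * (((a : K) : G) * ((b : K) : G))⁻¹ = α * β * w' := by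
      calc ((a : K) : G) * ((b : K) : G) * w' * (((a : K) : G) * ((b : K) : G))⁻¹ =
          ((a : K) : G) * (((b : K) : G) * w' * ((b : K) : G)⁻¹) * ((a : K) : G)⁻¹ := by group
        _ = ((a : K) : G) * (β * w') * ((a : K) : G)⁻¹ := by rw [hb]
        _ = (((a : K) : G) * β) * w' * ((a : K) : G)⁻¹ := by group
        _ = (β * ((a : K) : G)) * w' * ((a : K) : G)⁻¹ := by rw [hζc β hβ]
        _ = β * (((a : K) : G) * w' * ((a : K) : G)⁻¹) := by group
        _ = β * (α * w') := by rw [ha]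
        _ = α * β * w' := by rw [← mul_assoc, hαβ]
    have h2 : ((b : K) : G) * ((a : K) : G) * w' * (((b : K) : G) * ((a : K) : G))⁻¹ = α * β * w' := by
      calc ((b : K) : G) * ((a : K) : G) * w' * (((b : K) : G) * ((a : K) : G))⁻¹ =
          ((b : K) : G) * (((a : K) : G) * w' * ((a : K) : G)⁻¹) * ((b : K) : G)⁻¹ := by group
        _ = ((b : K) : G) * (α * w') * ((b : K) : G)⁻¹ := by rw [ha]
        _ = (((b : K) : G) * α) * w' * ((b : K) : G)⁻¹ := by group
        _ = (α * ((b : K) : G)) * w' * ((b : K) : G)⁻¹ := by rw [hζc α hα]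
        _ = α * (((b : K) : G) * w' * ((b : K) : G)⁻¹) := by group
        _ = α * (β * w') := by rw [hb]
        _ = α * β * w' := by group
    have h3 : w' = (((b : K) : G) * ((a : K) : G))⁻¹ * (α * β * w') * (((b : K) : G) * ((a : K) : G)) := by
      rw [← h2]; group
    have e : (((⁅a, b⁆ : centralizer ({z} : Set K)) : K) : G) = ((a : K) : G) * ((b : K) : G) *
        (((b : K) : G) * ((a : K) : G))⁻¹ := by
      rw [commutatorElement_def]
      simp only [Subgroup.coe_mul, Subgroup.coe_inv]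
      group
    rw [e]
    have h4 : (((b : K) : G) * ((a : K) : G))⁻¹ * w' * (((b : K) : G) * ((a : K) : G)) = α * β * w' := by
      have hi : (α * β) * (α * β) = 1 := by
        rcases hα with rfl | rfl <;> rcases hβ with rfl | rfl <;> simp [hzz]
      have hc1 : ∀ c : centralizer ({z} : Set K), ((c : K) : G) * (α * β) = (α * β) * ((c : K) : G) := by
        intro c
        rw [← mul_assoc, hζc α hα, mul_assoc, hζc β hβ, ← mul_assoc]
      have h5 : w' = (α * β) * (((b : K) : G) * ((a : K) : G) * w' * (((b : K) : G) * ((a : K) : G))⁻¹) := by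
        rw [h2, ← mul_assoc, hi, one_mul]
      have h6 : (((b : K) : G) * ((a : K) : G))⁻¹ * (α * β) = (α * β) * (((b : K) : G) * ((a : K) : G))⁻¹ := by
        have h7 : ((b : K) : G) * ((a : K) : G) * (α * β) = (α * β) * (((b : K) : G) * ((a : K) : G)) := by
          rw [mul_assoc, hc1 a, ← mul_assoc, hc1 b, mul_assoc]
        rw [inv_mul_eq_iff_eq_mul, ← mul_assoc, h7]
        group
      calc (((b : K) : G) * ((a : K) : G))⁻¹ * w' * (((b : K) : G) * ((a : K) : G)) =
          (((b : K) : G) * ((a : K) : G))⁻¹ * ((α * β) * (((b : K) : G) * ((a : K) : G) * w' *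
            (((b : K) : G) * ((a : K) : G))⁻¹)) * (((b : K) : G) * ((a : K) : G)) := by rw [← h5]
        _ = ((((b : K) : G) * ((a : K) : G))⁻¹ * (α * β)) * (((b : K) : G) * ((a : K) : G)) * w' := by group
        _ = _ := by rw [h6]; group
    calc ((a : K) : G) * ((b : K) : G) * (((b : K) : G) * ((a : K) : G))⁻¹ * w' *
          (((a : K) : G) * ((b : K) : G) * (((b : K) : G) * ((a : K) : G))⁻¹)⁻¹ =
        ((a : K) : G) * ((b : K) : G) * ((((b : K) : G) * ((a : K) : G))⁻¹ * w' * (((b : K) : G) * ((a : K) : G))) *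
          (((a : K) : G) * ((b : K) : G))⁻¹ := by group
      _ = ((a : K) : G) * ((b : K) : G) * (α * β * w') * (((a : K) : G) * ((b : K) : G))⁻¹ := by rw [h4]
      _ = w' := by
        have hc1 : ((a : K) : G) * ((b : K) : G) * (α * β) = (α * β) * (((a : K) : G) * ((b : K) : G)) := by
          have hc2 : ∀ c : centralizer ({z} : Set K), ((c : K) : G) * (α * β) = (α * β) * ((c : K) : G) := by
            intro c
            rw [← mul_assoc, hζc α hα, mul_assoc, hζc β hβ, ← mul_assoc]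
          rw [mul_assoc, hc2 b, ← mul_assoc, hc2 a, mul_assoc]
        have hi : (α * β) * (α * β) = 1 := by
          rcases hα with rfl | rfl <;> rcases hβ with rfl | rfl <;> simp [hzz]
        calc ((a : K) : G) * ((b : K) : G) * (α * β * w') * (((a : K) : G) * ((b : K) : G))⁻¹ =
            (((a : K) : G) * ((b : K) : G) * (α * β)) * w' * (((a : K) : G) * ((b : K) : G))⁻¹ := by group
          _ = (α * β) * (((a : K) : G) * ((b : K) : G) * w' * (((a : K) : G) * ((b : K) : G))⁻¹) := by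
            rw [hc1]; group
          _ = w' := by rw [h1, ← mul_assoc, hi, one_mul]
  -- `w'` is inner
  have hwc : ∀ c : centralizer ({z} : Set K), w' * ((c : K) : G) * w'⁻¹ = ((c : K) : G) := by
    intro c
    have h1 := (hD c).1 (hperf (mem_top c))
    rw [mul_inv_eq_iff_eq_mul] at h1 ⊢
    exact h1.symm
  have hwz : (φ w') z = z := Subtype.ext (by rw [hφa]; exact hwc (zc z))
  obtain ⟨k, hk⟩ := KFacts.J3Sheet.inner_of_even F.card_C F.model hin hnz F.gen hwz (σ := 1) (fun i => by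
    left
    exact Subtype.ext (by rw [hφa]; exact hwc (v i))) (by simp)
  have h1 := hin0 w' k hk
  apply hwK
  have h2 : w = (g : G) * w' * (g : G)⁻¹ := by rw [hw']; group
  rw [h2, h1]
  exact K.mul_mem (K.mul_mem g.2 k.2) (K.inv_mem g.2)

end Cfsg.Agent.H858.SidJ3
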